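import Cfsg.Agent.Blocks.TwoChars.BlockAlgebra
import Cfsg.Agent.Blocks.Orth.BrauerFeit
import Cfsg.Agent.Blocks.Subsection.Major

/-!
# Blocks with two irreducible characters

In a block with two characters the degrees are `s f` and `r f` with `s² + r² = p ^ d` (the
contributions of the regular elements), and their squares sum to twice a square (the dimension of
the block algebra).  So `p ^ d = 2`.
-/

set_option autoImplicit false
open Cfsg

namespace CfsgLib.Blocks.TwoChars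

open CfsgLib.Blocks CfsgLib.Blocks.HeightZero CfsgLib.Blocks.BrauerFeit

/-- The arithmetic. -/
theorem eq_two_of_arith {p d : ℕ} (hp : p.Prime) {a b : ℤ} {x y n : ℕ}
    (hrow : a ^ 2 + b ^ 2 = (p : ℤ) ^ d * a) (ha : ¬ (p : ℤ) ∣ a) (hb : b ≠ 0) (hx : x ≠ 0)
    (hdeg : a * x + b * y = (p : ℤ) ^ d * x) (hn : n ≠ 0) (hsq : x ^ 2 + y ^ 2 = 2 * n ^ 2) :
    p = 2 ∧ d = 1 := by
  have hd : d ≠ 0 := by
    rintro rfl
    simp only [pow_zero, one_mul] at hrow
    nlinarith [sq_nonneg (a - 1), sq_nonneg a, mul_self_pos.mpr hb]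
  have hb2 : 0 < b ^ 2 := by positivity
  have hq : (0 : ℤ) < (p : ℤ) ^ d := by have := hp.pos; positivity
  have hapos : 0 < a := by nlinarith [sq_nonneg a]
  have hrpos : 0 < (p : ℤ) ^ d - a := by nlinarith
  obtain ⟨A, rfl⟩ := Int.eq_ofNat_of_zero_le hapos.le
  obtain ⟨C, hC⟩ := Int.eq_ofNat_of_zero_le hrpos.le
  have hAC : A + C = p ^ d := by
    have : ((A : ℤ) + C) = (p : ℤ) ^ d := by omega
    exact_mod_cast this
  have hprod : A * C = b.natAbs ^ 2 := by
    have h1 : ((A * C : ℕ) : ℤ) = ((b.natAbs ^ 2 : ℕ) : ℤ) := by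
      push_cast
      rw [sq_abs, ← hC]
      linarith [hrow]
    exact_mod_cast h1
  have hpA : ¬ p ∣ A := fun h => ha (Int.natCast_dvd_natCast.mpr h)
  have hcop : Nat.Coprime A C := by
    rw [← Nat.coprime_self_add_right, hAC]
    exact ((hp.coprime_iff_not_dvd.mpr hpA).pow_left d).symm
  obtain ⟨s, hs⟩ := exists_eq_pow_of_mul_eq_pow (Nat.isUnit_iff.mpr hcop) hprod
  obtain ⟨r, hr⟩ := exists_eq_pow_of_mul_eq_pow (Nat.isUnit_iff.mpr hcop.symm)
    (by rw [mul_comm]; exact hprod)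
  subst hs hr
  have hbr : b * y = ((r ^ 2 : ℕ) : ℤ) * x := by rw [← hC]; linarith
  have habs : b.natAbs = s * r := by
    rw [← mul_pow] at hprod
    exact (Nat.pow_left_injective two_ne_zero hprod).symm
  have hr0 : r ≠ 0 := fun h => by simp [h] at habs; exact hb habs
  have hy : b.natAbs * y = r ^ 2 * x := by
    have h := congrArg Int.natAbs hbr
    simp only [Int.natAbs_mul, Int.natAbs_natCast] at h
    exact h
  have hsy : s * y = r * x := by
    rw [habs] at hy
    apply Nat.eq_of_mul_eq_mul_left (Nat.pos_of_ne_zero hr0)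
    linarith [hy]
  have hsr : Nat.Coprime s r :=
    (Nat.coprime_pow_left_iff two_pos s r).mp ((Nat.coprime_pow_right_iff two_pos _ r).mp hcop)
  obtain ⟨f, rfl⟩ : s ∣ x := hsr.dvd_of_dvd_mul_left ⟨y, hsy.symm⟩
  have hs0 : s ≠ 0 := fun h => hx (by simp [h])
  have hy' : y = r * f := by
    apply Nat.eq_of_mul_eq_mul_left (Nat.pos_of_ne_zero hs0)
    rw [hsy]; ring
  subst hy'
  have key : p ^ d * f ^ 2 = 2 * n ^ 2 := by rw [← hsq, ← hAC]; ring
  have hf : f ≠ 0 := fun h => hx (by simp [h])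
  by_cases hp2 : p = 2
  · refine ⟨hp2, ?_⟩
    subst hp2
    by_contra hd1
    have h4 : 4 ∣ s ^ 2 + r ^ 2 := by
      rw [hAC]
      exact Nat.pow_dvd_pow 2 (show 2 ≤ d by omega)
    have hso : s % 2 = 1 := by
      by_contra h
      exact hpA (dvd_pow (Nat.dvd_of_mod_eq_zero (by omega)) two_ne_zero)
    have hro : r % 2 = 1 := by
      by_contra h
      have h2r : 2 ∣ r ^ 2 := dvd_pow (Nat.dvd_of_mod_eq_zero (by omega)) two_ne_zero
      exact hpA ((Nat.dvd_add_left h2r).mp ((show 2 ∣ 4 by norm_num).trans h4))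
    obtain ⟨i, hi⟩ : ∃ i, s = 2 * i + 1 := ⟨s / 2, by omega⟩
    obtain ⟨j, hj⟩ : ∃ j, r = 2 * j + 1 := ⟨r / 2, by omega⟩
    subst hi hj
    have : (2 * i + 1) ^ 2 + (2 * j + 1) ^ 2 = 4 * (i ^ 2 + i + j ^ 2 + j) + 2 := by ring
    omega
  · exfalso
    have h := congrArg (fun m : ℕ => m.factorization 2) key
    simp only [Nat.factorization_mul (pow_ne_zero d hp.ne_zero) (pow_ne_zero 2 hf),
      Nat.factorization_mul two_ne_zero (pow_ne_zero 2 hn), Finsupp.add_apply,
      Nat.factorization_pow, Finsupp.smul_apply, smul_eq_mul] at h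
    rw [Nat.prime_two.factorization_self,
      Nat.factorization_eq_zero_of_not_dvd (fun h' : 2 ∣ p =>
        hp2 ((Nat.prime_dvd_prime_iff_eq Nat.prime_two hp).mp h').symm)] at h
    omega

universe u

variable {G : Type u} [Group G] [Fintype G] {p : ℕ} {M : Ideal AlgInt}

/-- A block with two irreducible characters has defect one and `p = 2`. -/
theorem eq_two_of_card_eq_two (hM : IsPModular p M) {B : Set (IrrCharacter G)} (hB : IsPBlock M B)
    (hcard : Nat.card B = 2) : p = 2 ∧ blockDefect p B = 1 := by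
  classical
  have := isMaximal_of_isPModular hM
  obtain ⟨χ, hχ, h0⟩ := exists_height_zero (p := p) hB
  obtain ⟨m, hm⟩ := exists_regMatrix hM hB
  set S := B.toFinite.toFinset
  have hScard : S.card = 2 := by
    rw [← Set.ncard_eq_toFinset_card B B.toFinite, ← Nat.card_coe_set_eq, hcard]
  have hχS : χ ∈ S := B.toFinite.mem_toFinset.2 hχ
  obtain ⟨ψ, hψne, hS⟩ : ∃ ψ, χ ≠ ψ ∧ S = {χ, ψ} := by
    obtain ⟨a, b, hab, hS⟩ := Finset.card_eq_two.mp hScard
    rw [hS, Finset.mem_insert, Finset.mem_singleton] at hχS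
    rcases hχS with rfl | rfl
    · exact ⟨b, hab, hS⟩
    · exact ⟨a, hab.symm, by rw [hS, Finset.pair_comm]⟩
  have hψ : ψ ∈ B := B.toFinite.mem_toFinset.1 (by show ψ ∈ S; simp [hS])
  have hrow := sum_sq_regMatrix hm hM hB hχ
  rw [show B.toFinite.toFinset = {χ, ψ} from hS, Finset.sum_pair hψne] at hrow
  have hdeg : ∑ φ ∈ S, (m χ φ : ℂ) * (φ : G → ℂ) 1 =
      (p : ℂ) ^ blockDefect p B * (χ : G → ℂ) 1 := by
    have h1 := congrFun (blockPart_pRegularPart hM hB (χ : G → ℂ)) 1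
    rw [blockPart_irr, Set.indicator_of_mem hχ, blockPart_apply_eq, Finset.sum_apply] at h1
    simp only [pRegularPart, IsPRegular, orderOf_one, Nat.dvd_one, hM.1.ne_one, not_false_iff,
      if_true, Pi.smul_apply, smul_eq_mul] at h1
    rw [← h1, Finset.mul_sum]
    refine Finset.sum_congr rfl fun φ _ => ?_
    rw [hm χ hχ φ, classInner_pRegularPart_eq _ (Chars.isCharacter_coe φ)]
    ring
  rw [hS, Finset.sum_pair hψne, ← Chars.coe_charDegree, ← Chars.coe_charDegree] at hdeg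
  obtain ⟨n, hn, hsq⟩ := exists_sum_degree_sq_eq hB hcard
  rw [show B.toFinite.toFinset = {χ, ψ} from hS, Finset.sum_pair hψne] at hsq
  refine eq_two_of_arith hM.1 hrow ?_ (regMatrix_ne_zero hm hM hB hχ h0 hψ)
    (Chars.charDegree_pos χ).ne' ?_ hn hsq
  · intro hdvd
    obtain ⟨w, hw, hw', e⟩ := regMatrix_eq_pow_mul hm hM hχ hχ
    rw [h0, pow_zero, one_mul] at e
    refine not_memLocalIdeal_mul hw (memLocalRing_regPair hM (Chars.isClassFunction_coe χ)
      (fun x _ => memLocalRing_apply (Chars.isCharacter_coe χ) x) χ) hw'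
      (not_memLocalIdeal_regPair_of_height_zero hM hB hχ h0 hχ) ?_
    rw [← e, show ((m χ χ : ℤ) : ℂ) = (((m χ χ : ℤ) : AlgInt) : ℂ) by simp,
      memLocalIdeal_coe_iff, intCast_mem_iff hM]
    exact hdvd
  · exact_mod_cast hdeg

end CfsgLib.Blocks.TwoChars
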